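import Mathlib
import Cfsg.Agent.Helper96.OHDefs
import Cfsg.Agent.Helper96.OHAux
import Cfsg.Agent.Helper37.OHOSTD
import Cfsg.Agent.Helper96.OHGOOD
import Cfsg.Agent.Helper96.OHGOOD2
import Cfsg.Agent.Helper73.OHOBADDIR
import Cfsg.Agent.Helper42.U5996OddOmega
import Cfsg.Agent.Helper97.OForm

set_option autoImplicit false
set_option linter.unusedSectionVars false
set_option linter.unusedVariables false

/-!
# S5992 (helper96): top-level assembly from the pieces of CALL S5992.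
-/

namespace Cfsg.Agent.Helper96.OHAsm

open Module Polynomial Cfsg Cfsg.Geo
open Cfsg.Agent.Helper13.TIu Cfsg.Agent.Helper96.OH Cfsg.Agent.Helper96.OHAux
open scoped MatrixGroups

theorem main {F : Type*} [Field F] [Fintype F] {p : ℕ} [Fact p.Prime] [CharP F p] {q : ℕ} (hq : Fintype.card F = q) (hqodd : Odd q)
    (d m : ℕ) (hd : 3 ≤ d) (hm : 2 ≤ m) (hme : Even m) (hmn : m ≤ 2 * d)
    (r : ℕ) [Fact r.Prime] (hrp : r ≠ p)
    (hrΩ : r ∣ Nat.card {W : Submodule F (Unit ⊕ (Fin d ⊕ Fin d) → F) // Module.finrank F ↥W = m ∧ Cfsg.Geo.IsNondegenerateOn (QuadraticMap.polar (Cfsg.quadFormOdd d F)) W ∧ Cfsg.Geo.IsPlusTypeOn (Cfsg.quadFormOdd d F) W})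
    (i c : ℕ) (hi : i = orderOf (q : ZMod r)) (hc : c = if Even i then i else 2 * i) :
    (∀ x : GL (Unit ⊕ (Fin d ⊕ Fin d)) F, x ∈ Cfsg.Geo.omegaGL (Cfsg.quadFormOdd d F) → orderOf x = r →
      ∃ W : Submodule F (Unit ⊕ (Fin d ⊕ Fin d) → F), (Module.finrank F ↥W = m ∧ Cfsg.Geo.IsNondegenerateOn (QuadraticMap.polar (Cfsg.quadFormOdd d F)) W ∧ Cfsg.Geo.IsPlusTypeOn (Cfsg.quadFormOdd d F) W) ∧ W.map (Matrix.toLin' (x : Matrix (Unit ⊕ (Fin d ⊕ Fin d)) (Unit ⊕ (Fin d ⊕ Fin d)) F)) ≤ W) ↔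
    (r = 2 ∨
     (2 < r ∧ Odd i ∧ c ≤ m ∧ (m % c = 0 ∨ (0 < m % c ∧ m % c < (2 * d + 1) % c))) ∨
     (2 < r ∧ Even i ∧ i ≤ m ∧ m % c < (2 * d + 1) % c ∧ (0 < m % c ∨ Even (m / i)))) := by
  classical
  subst hq
  have h2 : (2 : F) ≠ 0 := oh_two_ne_zero_of_odd_card hqodd
  have hQ := Cfsg.Agent.Helper37.OH5992.o_std_nondeg (F := F) h2 d
  have hrpr : r.Prime := Fact.out
  have hrF : (r : F) ≠ 0 := by
    intro h0
    have h1 := (CharP.cast_eq_zero_iff F p r).mp h0
    exact hrp ((Nat.prime_dvd_prime_iff_eq Fact.out hrpr).mp h1).symm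
  have hcard := oh_card_idx d
  have hodd : Odd (Fintype.card (Unit ⊕ (Fin d ⊕ Fin d))) := by
    rw [hcard]; exact ⟨d, rfl⟩
  constructor
  · -- (⟹)
    intro hL
    by_cases hr2 : r = 2
    · exact Or.inl hr2
    have hr2' : 2 < r := lt_of_le_of_ne hrpr.two_le (Ne.symm hr2)
    have hrodd : Odd r := hrpr.odd_of_ne_two hr2
    have hL' : ∀ g : Matrix.GeneralLinearGroup (Unit ⊕ (Fin d ⊕ Fin d)) F,
        g ∈ Cfsg.isometryGroup F (Cfsg.quadFormOdd d F) → orderOf g = r →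
        ∃ W : Submodule F (Unit ⊕ (Fin d ⊕ Fin d) → F),
          (finrank F W = m ∧ ONd (Cfsg.quadFormOdd d F) W ∧ OPl (Cfsg.quadFormOdd d F) W) ∧
          W.map (Matrix.toLin'
            (g : Matrix (Unit ⊕ (Fin d ⊕ Fin d)) (Unit ⊕ (Fin d ⊕ Fin d)) F)) ≤ W := by
      intro g hg hgr
      refine hL g ?_ hgr
      have h3 := Cfsg.Agent.Helper42.odd_order_mem_omega h2
        (Cfsg.Agent.Helper98.op_qf (Cfsg.quadFormOdd d F) hQ)
        (Cfsg.Agent.Helper98.op_qf_nondeg (Cfsg.quadFormOdd d F) hQ) g hg r hrodd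
        (by rw [← hgr]; exact pow_orderOf_eq_one g)
      exact h3
    obtain ⟨h1, h3, h4⟩ := Cfsg.Agent.Helper73.OH5992.o_bad_dir p h2 d m hme hm hmn r hr2' hrp hrΩ i c hi hc hL'
    by_cases hie : Even i
    · right; right
      have hci : c = i := by rw [hc, if_pos hie]
      exact ⟨hr2', hie, by rw [← hci]; exact h1, h3, h4 hie⟩
    · right; left
      refine ⟨hr2', Nat.not_even_iff_odd.mp hie, h1, ?_⟩
      rcases Nat.eq_zero_or_pos (m % c) with h0 | h0
      · exact Or.inl h0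
      · exact Or.inr ⟨h0, h3⟩
  · -- (⟸)
    intro hR x hx hxr
    have hxiso : x ∈ Cfsg.isometryGroup F (Cfsg.quadFormOdd d F) :=
      Cfsg.Agent.Helper97.Gen.omegaGL_le _ hx
    have hT := oh_opres_toLin' (Cfsg.quadFormOdd d F) x hxiso
    have hTr := oh_pow_toLin'_of_orderOf x r hxr
    have hmn' : m < Fintype.card (Unit ⊕ (Fin d ⊕ Fin d)) := by rw [hcard]; omega
    rcases hR with hr2 | ⟨hr2, hio, hcm, hcase⟩ | ⟨hr2, hie, him, hk, hty⟩
    · subst hr2
      exact Cfsg.Agent.Helper96.OH5992.o_good_two (Cfsg.quadFormOdd d F) hQ h2 _ hT hTr m hme hm hmn' hodd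
    · have hceven : Even c := by
        rw [hc, if_neg (Nat.not_even_iff_odd.mpr hio)]
        exact even_two_mul i
      have hk : m % c < Fintype.card (Unit ⊕ (Fin d ⊕ Fin d)) % c := by
        rw [hcard]
        rcases hcase with h0 | ⟨-, h0⟩
        · rw [h0]
          obtain ⟨c', hc'⟩ := hceven
          have hcpos : 0 < c := by
            rcases Nat.eq_zero_or_pos c with h | h
            · exfalso
              rw [hc, if_neg (Nat.not_even_iff_odd.mpr hio)] at h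
              obtain ⟨j, hj⟩ := hio
              omega
            · exact h
          by_contra hcon
          have h5 : (2 * d + 1) % c = 0 := by omega
          have h6 := Nat.div_add_mod (2 * d + 1) c
          rw [h5, hc'] at h6
          have h7 : (c' + c') * ((2 * d + 1) / (c' + c')) = 2 * (c' * ((2 * d + 1) / (c' + c'))) := by
            ring
          omega
        · exact h0
      exact Cfsg.Agent.Helper96.OH5992.o_good (Cfsg.quadFormOdd d F) hQ h2 _ hT r hr2 hrF hTr i c hi hc m hme hcm hmn' hk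
        (Or.inl hio)
    · have hci : c = i := by rw [hc, if_pos hie]
      have hk' : m % c < Fintype.card (Unit ⊕ (Fin d ⊕ Fin d)) % c := by rw [hcard]; exact hk
      exact Cfsg.Agent.Helper96.OH5992.o_good (Cfsg.quadFormOdd d F) hQ h2 _ hT r hr2 hrF hTr i c hi hc m hme
        (by rw [hci]; exact him) hmn' hk' (Or.inr hty)

end Cfsg.Agent.Helper96.OHAsm
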